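import Mathlib

/-!
# The permutation group of a simple group on the cosets of a subgroup
-/

set_option autoImplicit false

namespace Cfsg.Agent.Lib.DCE.PermPack

variable {G : Type*} [Group G] [Finite G] [IsSimpleGroup G]

/-- The action of a simple group on the cosets of a proper subgroup as a permutation group. -/
theorem exists_perm (M : Subgroup G) (N : ℕ) [NeZero N] (hN : M.index = N) (hN1 : 1 < N) :
    ∃ (H : Subgroup (Equiv.Perm (Fin N))) (φ : G ≃* H), MulAction.IsPretransitive H (Fin N) ∧
      Nonempty (M ≃* MulAction.stabilizer H (0 : Fin N)) := by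
  classical
  have hc : Nat.card (G ⧸ M) = N := by rw [← Subgroup.index_eq_card, hN]
  let e0 : G ⧸ M ≃ Fin N := Finite.equivFinOfCardEq hc
  let x0 : G ⧸ M := QuotientGroup.mk 1
  let e : G ⧸ M ≃ Fin N := e0.trans (Equiv.swap (e0 x0) 0)
  have he : e x0 = 0 := by simp [e]
  let α : G →* Equiv.Perm (G ⧸ M) := MulAction.toPermHom G (G ⧸ M)
  let φ0 : G →* Equiv.Perm (Fin N) := (e.permCongrHom).toMonoidHom.comp α
  have hφ : ∀ (g : G) (x : G ⧸ M), φ0 g (e x) = e (g • x) := by
    intro g x
    change e (g • e.symm (e x)) = _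
    rw [e.symm_apply_apply]
  have hinj : Function.Injective φ0 := by
    rw [← MonoidHom.ker_eq_bot_iff]
    rcases IsSimpleGroup.eq_bot_or_eq_top_of_normal φ0.ker (MonoidHom.normal_ker φ0) with h | h
    · exact h
    · exfalso
      have hM : M = ⊤ := by
        rw [eq_top_iff]
        intro g _
        have h1 : g ∈ φ0.ker := by
          rw [h]
          trivial
        have h2 : φ0 g (e x0) = e x0 := by
          rw [MonoidHom.mem_ker.1 h1]
          rfl
        rw [hφ] at h2
        have h3 := e.injective h2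
        have h4 : (QuotientGroup.mk (g * 1) : G ⧸ M) = QuotientGroup.mk 1 := h3
        have h5 := QuotientGroup.eq.1 h4
        have h6 := M.inv_mem h5
        simpa using h6
      rw [hM, Subgroup.index_top] at hN
      omega
  let φ : G ≃* φ0.range := MonoidHom.ofInjective hinj
  refine ⟨φ0.range, φ, ⟨fun i j => ?_⟩, ?_⟩
  · obtain ⟨a, rfl⟩ := e.surjective i
    obtain ⟨b, rfl⟩ := e.surjective j
    obtain ⟨a, rfl⟩ := QuotientGroup.mk_surjective a
    obtain ⟨b, rfl⟩ := QuotientGroup.mk_surjective b
    refine ⟨⟨φ0 (b * a⁻¹), ⟨_, rfl⟩⟩, ?_⟩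
    change φ0 (b * a⁻¹) (e (QuotientGroup.mk a)) = _
    rw [hφ]
    congr 1
    change (QuotientGroup.mk (b * a⁻¹ * a) : G ⧸ M) = _
    rw [inv_mul_cancel_right]
  · have hmap : M.map (φ : G →* φ0.range) = MulAction.stabilizer φ0.range (0 : Fin N) := by
      ext ⟨p, hp⟩
      constructor
      · rintro ⟨g, hg, hgp⟩
        have hgp2 : p = φ0 g := (congrArg Subtype.val hgp).symm
        rw [MulAction.mem_stabilizer_iff]
        change p 0 = 0
        rw [hgp2, ← he, hφ]
        congr 1
        change (QuotientGroup.mk (g * 1) : G ⧸ M) = QuotientGroup.mk 1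
        apply QuotientGroup.eq.2
        simpa using M.inv_mem hg
      · intro h
        rw [MulAction.mem_stabilizer_iff] at h
        have h1 : p 0 = 0 := h
        obtain ⟨g, rfl⟩ := hp
        refine ⟨g, ?_, rfl⟩
        rw [← he, hφ] at h1
        have h3 := e.injective h1
        have h4 : (QuotientGroup.mk (g * 1) : G ⧸ M) = QuotientGroup.mk 1 := h3
        have h5 := QuotientGroup.eq.1 h4
        have h6 := M.inv_mem h5
        simpa using h6
    exact ⟨(φ.subgroupMap M).trans (MulEquiv.subgroupCongr hmap)⟩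

end Cfsg.Agent.Lib.DCE.PermPack
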